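import Mathlib
import Cfsg.Agent.Lib.Helper34.SnB.QSDefs
import Cfsg.Agent.Lib.Helper47.Subn

/-!
# S2986 sub-package [QS-NORM]: under (C) two blocks normalize each other and
`[E, F] ≤ O_p(E) ∩ O_p(F)`
-/

set_option autoImplicit false

namespace Cfsg.Agent.Lib.Helper67.SnB

open Cfsg Cfsg.Agent.Lib.Helper41.SnB Cfsg.Agent.Lib.Helper34.SnB
open scoped commutatorElement

universe u

variable {G : Type u} [Group G]

/-- one half of [NORM]: if all commutators of `E` and the block `F` lie in `O_p(G)`, then `E`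
normalizes `F` -/
theorem nz_of_cc {p : ℕ} (E F : Subgroup G) (hF : SBlk p F)
    (hC : ∀ e ∈ E, ∀ f ∈ F, e * f * e⁻¹ * f⁻¹ ∈ pCore p G) : Nz E F := by
  intro e he f hf
  have hmap : ∀ e ∈ E, ∀ x ∈ F ⊔ pCore p G, e * x * e⁻¹ ∈ F ⊔ pCore p G := by
    intro e he x hx
    have h1 : (F ⊔ pCore p G).map (MulAut.conj e).toMonoidHom ≤ F ⊔ pCore p G := by
      rw [Subgroup.map_sup]
      apply sup_le
      · rintro _ ⟨f, hf, rfl⟩
        have e1 : (MulAut.conj e).toMonoidHom f = (e * f * e⁻¹ * f⁻¹) * f := by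
          show e * f * e⁻¹ = _
          group
        rw [e1]
        exact (F ⊔ pCore p G).mul_mem
          ((le_sup_right : pCore p G ≤ F ⊔ pCore p G) (hC e he f hf))
          ((le_sup_left : F ≤ F ⊔ pCore p G) hf)
      · rintro _ ⟨x, hx, rfl⟩
        exact (le_sup_right : pCore p G ≤ F ⊔ pCore p G)
          ((pCore_normal p G).conj_mem x hx e)
    exact h1 (Subgroup.mem_map_of_mem _ hx)
  have hnorm : e ∈ Subgroup.normalizer ((F ⊔ pCore p G : Subgroup G) : Set G) := by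
    rw [Subgroup.mem_normalizer_iff]
    intro x
    constructor
    · exact hmap e he x
    · intro hx
      have h' := hmap e⁻¹ (E.inv_mem he) _ hx
      have e1 : e⁻¹ * (e * x * e⁻¹) * e⁻¹⁻¹ = x := by group
      rwa [e1] at h'
  have h2 := Cfsg.Agent.Lib.Helper47.normalizer_le_normalizer_pResidual_map p (F ⊔ pCore p G) hnorm
  have h3 : ((Cfsg.pResidual p ↥(F ⊔ pCore p G)).map (F ⊔ pCore p G).subtype) = F := hF.OEP
  rw [h3] at h2
  exact (Subgroup.mem_normalizer_iff.mp h2 f).mp hf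

theorem pkgNorm : PkgNorm.{u} := by
  intro G _ _ p _ E F hE hF hC
  have hC' : ∀ f ∈ F, ∀ e ∈ E, f * e * f⁻¹ * e⁻¹ ∈ pCore p G := by
    intro f hf e he
    have h := (pCore p G).inv_mem (hC e he f hf)
    have e1 : (e * f * e⁻¹ * f⁻¹)⁻¹ = f * e * f⁻¹ * e⁻¹ := by group
    rwa [e1] at h
  have h1 : Nz E F := nz_of_cc E F hF hC
  have h2 : Nz F E := nz_of_cc F E hE hC'
  refine ⟨h1, h2, ?_⟩
  rw [Subgroup.commutator_le]
  intro e he f hf
  rw [commutatorElement_def]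
  have hP := hC e he f hf
  have hinE : e * f * e⁻¹ * f⁻¹ ∈ E := by
    have h' := h2 f hf e⁻¹ (E.inv_mem he)
    have e1 : e * f * e⁻¹ * f⁻¹ = e * (f * e⁻¹ * f⁻¹) := by group
    rw [e1]
    exact E.mul_mem he h'
  have hinF : e * f * e⁻¹ * f⁻¹ ∈ F := F.mul_mem (h1 e he f hf) (F.inv_mem hf)
  exact ⟨hE.EP ⟨hinE, hP⟩, hF.EP ⟨hinF, hP⟩⟩

example : PkgNorm.{3} := pkgNorm
example : PkgNorm.{0} := pkgNorm

end Cfsg.Agent.Lib.Helper67.SnB
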