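import Mathlib
import Cfsg.Agent.Lib.Helper34.SnB.QSDefs
import Cfsg.Agent.Lib.Helper22.Comp

/-!
# S2986 sub-package [QS-RED]: reduction to condition (C) by the components of `G / O_p(G)`
-/

set_option autoImplicit false

namespace Cfsg.Agent.Lib.Helper67.SnB

open Cfsg Cfsg.Agent.Lib.Helper41.SnB Cfsg.Agent.Lib.Helper34.SnB
open scoped commutatorElement

universe u

variable {G : Type u} [Group G]

/-- the image of a block `E` in `G / O_p(G)` is `E / O_p(E)` -/
theorem map_equiv {p : ℕ} (E : Subgroup G) (hE : SBlk p E) :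
    Nonempty (↥(E.map (QuotientGroup.mk' (pCore p G))) ≃* ↥E ⧸ pCore p ↥E) := by
  let φ : ↥E →* ↥(E.map (QuotientGroup.mk' (pCore p G))) :=
    (QuotientGroup.mk' (pCore p G)).subgroupMap E
  have hφ : Function.Surjective φ := (QuotientGroup.mk' (pCore p G)).subgroupMap_surjective E
  have hker : φ.ker = pCore p ↥E := by
    ext e
    rw [MonoidHom.mem_ker]
    constructor
    · intro h
      have h1 : QuotientGroup.mk' (pCore p G) (e : G) = 1 := congrArg Subtype.val h
      rw [QuotientGroup.mk'_apply, QuotientGroup.eq_one_iff] at h1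
      have h2 : (e : G) ∈ Qb p E := hE.EP ⟨e.2, h1⟩
      obtain ⟨e', he', hee⟩ := Subgroup.mem_map.mp h2
      have hee' : e' = e := Subtype.ext hee
      rw [← hee']
      exact he'
    · intro h
      have h1 : (e : G) ∈ pCore p G := hE.QP (Subgroup.mem_map_of_mem _ h)
      apply Subtype.ext
      show QuotientGroup.mk' (pCore p G) (e : G) = 1
      rw [QuotientGroup.mk'_apply, QuotientGroup.eq_one_iff]
      exact h1
  exact ⟨((QuotientGroup.quotientMulEquivOfEq hker.symm).trans
    (QuotientGroup.quotientKerEquivOfSurjective φ hφ)).symm⟩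

theorem pkgRed : PkgRed.{u} := by
  intro G _ _ p _ E F hE hF hEs hFs hEq hFq
  have hπs : Function.Surjective (QuotientGroup.mk' (pCore p G)) :=
    QuotientGroup.mk'_surjective (pCore p G)
  obtain ⟨eE⟩ := map_equiv E hE
  have hEc : Cfsg.IsComponent (E.map (QuotientGroup.mk' (pCore p G))) :=
    ⟨hEs.map hπs, Cfsg.Agent.Lib.Helper22.isQuasisimple_of_mulEquiv eE hEq.1⟩
  have hcomm : ⁅E.map (QuotientGroup.mk' (pCore p G)), F.map (QuotientGroup.mk' (pCore p G))⁆ = ⊥ →
      CC p E F := by
    intro h e he f hf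
    have h1 : ⁅QuotientGroup.mk' (pCore p G) e, QuotientGroup.mk' (pCore p G) f⁆ ∈
        ⁅E.map (QuotientGroup.mk' (pCore p G)), F.map (QuotientGroup.mk' (pCore p G))⁆ :=
      Subgroup.commutator_mem_commutator (Subgroup.mem_map_of_mem _ he)
        (Subgroup.mem_map_of_mem _ hf)
    rw [h, Subgroup.mem_bot] at h1
    have h2 : QuotientGroup.mk' (pCore p G) (e * f * e⁻¹ * f⁻¹) = 1 := by
      rw [← h1, commutatorElement_def]
      simp
    rw [QuotientGroup.mk'_apply, QuotientGroup.eq_one_iff] at h2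
    exact h2
  rcases hFq with hFq | ⟨r, hr, hFr⟩
  · obtain ⟨eF⟩ := map_equiv F hF
    have hFc : Cfsg.IsComponent (F.map (QuotientGroup.mk' (pCore p G))) :=
      ⟨hFs.map hπs, Cfsg.Agent.Lib.Helper22.isQuasisimple_of_mulEquiv eF hFq.1⟩
    by_cases hne : E.map (QuotientGroup.mk' (pCore p G)) = F.map (QuotientGroup.mk' (pCore p G))
    · left
      have h1 : E ⊔ pCore p G = F ⊔ pCore p G := by
        have hk : (QuotientGroup.mk' (pCore p G)).ker = pCore p G := QuotientGroup.ker_mk' _
        have hE' := Subgroup.comap_map_eq (QuotientGroup.mk' (pCore p G)) E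
        have hF' := Subgroup.comap_map_eq (QuotientGroup.mk' (pCore p G)) F
        rw [hk] at hE' hF'
        rw [← hE', ← hF', hne]
      calc E = pResidualOf p (E ⊔ pCore p G) := hE.OEP.symm
        _ = pResidualOf p (F ⊔ pCore p G) := by rw [h1]
        _ = F := hF.OEP
    · right
      exact hcomm (Cfsg.Agent.Lib.Helper22.components_commute hEc hFc hne)
  · right
    obtain ⟨eF⟩ := map_equiv F hF
    have : Fact r.Prime := ⟨hr⟩
    have hFr' : IsPGroup r ↥(F.map (QuotientGroup.mk' (pCore p G))) := hFr.of_equiv eF.symm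
    have hnil : Group.IsNilpotent ↥(F.map (QuotientGroup.mk' (pCore p G))) := hFr'.isNilpotent
    have hsol : Group.IsSolvable ↥(F.map (QuotientGroup.mk' (pCore p G))) := inferInstance
    exact hcomm (Cfsg.Agent.Lib.Helper22.component_commute_of_solvable hEc (hFs.map hπs) hsol)

example : PkgRed.{3} := pkgRed
example : PkgRed.{0} := pkgRed

end Cfsg.Agent.Lib.Helper67.SnB
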